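import Cfsg.Agent.Lib.CNGroup.Structure
import Cfsg.Agent.Lib.Involution.Basic
import Cfsg.Agent.S1476
import Cfsg.Agent.S4066
import Cfsg.Prelude.Def_OddOrderLocal

/-!
Groups in which all element centralisers are TI subsets: they are CN-groups; the soluble ones are
nilpotent or Frobenius with cyclic or quaternion-of-order-eight by cyclic complement.
-/

set_option autoImplicit false

open Subgroup

namespace Cfsg.Agent.Lib.TICent

universe u

variable {G : Type u} [Group G]

/-- All element centralisers are TI subsets. -/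
def CentTI (G : Type u) [Group G] : Prop :=
  ∀ x : G, Cfsg.IsTISubset (centralizer ({x} : Set G) : Set G)

/-- If `g` moves an element of `C(x) ∖ 1` into `C(x)`, it normalises `C(x)`. -/
theorem CentTI.mem_normalizer (h : CentTI G) {x w g : G} (hw1 : w ≠ 1)
    (hw : w ∈ centralizer ({x} : Set G)) (hgw : g * w * g⁻¹ ∈ centralizer ({x} : Set G)) :
    g ∈ normalizer (centralizer ({x} : Set G) : Set G) :=
  by_contra fun hn => hw1 (h x g hn w hw hgw)

theorem CentTI.conj_mem (h : CentTI G) {x w g y : G} (hw1 : w ≠ 1)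
    (hw : w ∈ centralizer ({x} : Set G)) (hgw : g * w * g⁻¹ ∈ centralizer ({x} : Set G))
    (hy : y ∈ centralizer ({x} : Set G)) : g * y * g⁻¹ ∈ centralizer ({x} : Set G) :=
  (Subgroup.mem_normalizer_iff.mp (h.mem_normalizer hw1 hw hgw) y).mp hy

/-- A finite group in which conjugate elements commute is nilpotent. -/
theorem nilpotent_of_conj_commute [Finite G] (h : ∀ x g : G, Commute x (g * x * g⁻¹)) :
    Group.IsNilpotent G := by
  suffices hf : Cfsg.fittingSubgroup G = ⊤ by
    exact Group.isNilpotent_top.1 (hf ▸ Hall.fittingSubgroup_isNilpotent)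
  refine top_le_iff.mp fun x _ => ?_
  set A := normalClosure ({x} : Set G) with hA
  have hc : IsMulCommutative A := by
    refine isMulCommutative_closure ?_
    intro a ha b hb
    obtain ⟨c, hc, hac⟩ := Group.mem_conjugatesOfSet_iff.mp ha
    obtain ⟨c', hc', hbc⟩ := Group.mem_conjugatesOfSet_iff.mp hb
    rw [Set.mem_singleton_iff] at hc hc'
    subst c; subst c'
    obtain ⟨g, rfl⟩ := isConj_iff.mp hac
    obtain ⟨k, rfl⟩ := isConj_iff.mp hbc
    have h1 := (h x (g⁻¹ * k)).map (MulAut.conj g).toMonoidHom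
    simp only [MulEquiv.coe_toMonoidHom, MulAut.conj_apply] at h1
    rw [show g * (g⁻¹ * k * x * (g⁻¹ * k)⁻¹) * g⁻¹ = k * x * k⁻¹ by group] at h1
    exact h1.eq
  haveI := hc
  haveI : A.Normal := normalClosure_normal
  exact Hall.le_fittingSubgroup (N := A) (letI : CommGroup A := { (inferInstance : Group A) with mul_comm := hc.is_comm.comm }; CommGroup.isNilpotent)
    (subset_normalClosure (Set.mem_singleton x))

/-- With a nontrivial centre the group is nilpotent. -/
theorem CentTI.nilpotent_of_center [Finite G] (h : CentTI G) {z : G} (hz : z ∈ center G) (hz1 : z ≠ 1) :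
    Group.IsNilpotent G := by
  refine nilpotent_of_conj_commute fun x g => ?_
  have hzx : z ∈ centralizer ({x} : Set G) :=
    mem_centralizer_singleton_iff.mpr (mem_center_iff.mp hz x).symm
  have hgz : g * z * g⁻¹ ∈ centralizer ({x} : Set G) := by
    rw [mem_center_iff.mp hz g, mul_inv_cancel_right]; exact hzx
  exact (mem_centralizer_singleton_iff.mp
    (h.conj_mem hz1 hzx hgz (mem_centralizer_singleton_iff.mpr rfl))).symm

/-- The group is a CN-group. -/
theorem CentTI.isCN [Finite G] (h : CentTI G) : Cfsg.IsCNGroup G := by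
  intro w hw
  refine nilpotent_of_conj_commute fun x g => ?_
  have hwx : w ∈ centralizer ({(x : G)} : Set G) :=
    mem_centralizer_singleton_iff.mpr (mem_centralizer_singleton_iff.mp x.2).symm
  have hgw : (g : G) * w * (g : G)⁻¹ ∈ centralizer ({(x : G)} : Set G) := by
    rw [mem_centralizer_singleton_iff.mp g.2, mul_inv_cancel_right]; exact hwx
  exact Subtype.ext (mem_centralizer_singleton_iff.mp
    (h.conj_mem hw hwx hgw (mem_centralizer_singleton_iff.mpr rfl))).symm

theorem CentTI.no_threeStep [Finite G] (h : CentTI G) {p : ℕ} [hp : Fact p.Prime] :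
    ¬ Cfsg.IsThreeStepGroup p G := by
  rintro ⟨hO, A, -, -, -, -, hn, hne, ⟨n, hidx⟩, -, -⟩
  obtain ⟨P⟩ := (inferInstance : Nonempty (Sylow p G))
  have hOle : ∀ Q : Sylow p G, Cfsg.pCore p G ≤ (Q : Subgroup G) := fun Q => Hall.pCore_le_sylow Q
  haveI : Subsingleton (Sylow p G) := ⟨fun Q R => by
    by_contra hQR
    exact hO (eq_bot_iff.mpr ((le_inf (hOle Q) (hOle R)).trans_eq (S4066.result h Q R hQR)))⟩
  haveI : (P : Subgroup G).Normal := P.normal_of_subsingleton
  have hPO : (P : Subgroup G) ≤ Cfsg.pCore p G := le_sSup ⟨inferInstance, P.isPGroup'⟩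
  rcases n with _ | n
  · exact hne (index_eq_one.mp (by simpa using hidx))
  · have h1 : p ∣ (Cfsg.pCore p G ⊔ A).index := by rw [hidx]; exact dvd_pow_self p n.succ_ne_zero
    exact P.not_dvd_index (h1.trans (index_dvd_of_le (hPO.trans le_sup_left)))

theorem quaternion_small {n : ℕ} (Q : Subgroup G) (h : CentTI G)
    (e : ↥Q ≃* QuaternionGroup (2 ^ n)) : n ≤ 1 := by
  by_contra hn
  push Not at hn
  haveI : NeZero (2 ^ n) := ⟨by positivity⟩
  set b : ↥Q := e.symm (QuaternionGroup.xa 0) with hb
  set g : ↥Q := e.symm (QuaternionGroup.a 1) with hg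
  have hgz : g * (b * b) * g⁻¹ = b * b := by
    apply e.injective
    simp only [map_mul, map_inv, hb, hg, MulEquiv.apply_symm_apply, QuaternionGroup.xa_mul_xa]
    rw [mul_inv_eq_iff_eq_mul, QuaternionGroup.a_mul_a, QuaternionGroup.a_mul_a, add_comm]
  have hz1 : ((b * b : ↥Q) : G) ≠ 1 := by
    intro hh
    have h2 : e (b * b) = 1 := by rw [Subtype.ext (hh.trans Q.coe_one.symm) (a1 := b * b), map_one]
    rw [map_mul, hb, MulEquiv.apply_symm_apply, QuaternionGroup.xa_mul_xa, QuaternionGroup.one_def,
      QuaternionGroup.a.injEq, add_zero, sub_zero] at h2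
    have h3 := (ZMod.natCast_eq_zero_iff _ _).mp h2
    have := Nat.le_of_dvd (by positivity) h3
    have : 0 < 2 ^ n := by positivity
    omega
  have hc : ((b * b : ↥Q) : G) ∈ centralizer ({(b : G)} : Set G) :=
    mem_centralizer_singleton_iff.mpr (by simp [mul_assoc])
  have h1 := h.conj_mem (g := (g : G)) hz1 hc
    (by rw [← Subgroup.coe_inv, ← Subgroup.coe_mul, ← Subgroup.coe_mul, hgz]; exact hc)
    (mem_centralizer_singleton_iff.mpr (rfl : (b : G) * b = b * b))
  have h2 : g * b * g⁻¹ * b = b * (g * b * g⁻¹) := Subtype.ext (mem_centralizer_singleton_iff.mp h1)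
  have h3 := congrArg e h2
  simp only [map_mul, map_inv, hb, hg, MulEquiv.apply_symm_apply] at h3
  have hinv : (QuaternionGroup.a 1 : QuaternionGroup (2 ^ n))⁻¹ = QuaternionGroup.a (-1) := rfl
  rw [hinv, QuaternionGroup.a_mul_xa, QuaternionGroup.xa_mul_a, QuaternionGroup.xa_mul_xa,
    QuaternionGroup.xa_mul_xa, QuaternionGroup.a.injEq] at h3
  have h4 : ((4 : ℕ) : ZMod (2 * 2 ^ n)) = 0 := by
    push_cast
    linear_combination h3
  have h5 := Nat.le_of_dvd (by norm_num) ((ZMod.natCast_eq_zero_iff _ _).mp h4)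
  have : 2 ^ 2 ≤ 2 ^ n := Nat.pow_le_pow_right two_pos hn
  omega

/-- The soluble case. -/
theorem CentTI.solvable_case [Finite G] [Group.IsSolvable G] (h : CentTI G) :
    Group.IsNilpotent G ∨
    ∃ H : Subgroup G, Cfsg.IsFrobeniusComplement H ∧
      (IsCyclic H ∨ ∃ m : ℕ, Odd m ∧ Nonempty (H ≃* Multiplicative (ZMod m) × QuaternionGroup 2)) := by
  rcases S1476.result h.isCN with hnil | ⟨K, E, -, -, hE, hcases⟩ | ⟨p, hp, h3⟩
  · exact Or.inl hnil
  · refine Or.inr ⟨E, hE, ?_⟩
    rcases hcases with hc | ⟨C, Q, hCQ, hcomm, hCc, hCodd, n, ⟨e⟩⟩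
    · exact Or.inl hc
    have hn := quaternion_small Q h e
    haveI : NeZero (2 ^ n) := ⟨by positivity⟩
    have hcardQ : Nat.card Q = 2 ^ (n + 2) := by
      rw [Nat.card_congr e.toEquiv, Nat.card_eq_fintype_card, QuaternionGroup.card]; ring
    have hcop : (Nat.card C).Coprime (Nat.card Q) := by
      rw [hcardQ]
      exact (Nat.coprime_two_right.mpr hCodd).pow_right _
    let f : C × Q →* G := MonoidHom.noncommCoprod C.subtype Q.subtype fun a b => hcomm a a.2 b b.2
    have hf : Function.Injective f := by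
      rw [injective_iff_map_eq_one]
      rintro ⟨⟨a, ha⟩, ⟨b, hb⟩⟩ hab
      have hab' : a * b = 1 := hab
      have hd := Subgroup.inf_eq_bot_of_coprime hcop
      have ha1 : a = 1 := by
        have : a ∈ C ⊓ Q := ⟨ha, by rw [eq_inv_of_mul_eq_one_left hab']; exact Q.inv_mem hb⟩
        rwa [hd, mem_bot] at this
      subst ha1
      rw [one_mul] at hab'
      subst hab'
      rfl
    have hrange : f.range = E := by
      refine (MonoidHom.noncommCoprod_range _ _ _).trans ?_
      rw [range_subtype, range_subtype, hCQ]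
    let eE : ↥E ≃* C × Q := (MulEquiv.subgroupCongr hrange).symm.trans (MonoidHom.ofInjective hf).symm
    rcases Nat.le_one_iff_eq_zero_or_eq_one.mp hn with rfl | rfl
    · left
      haveI : IsCyclic Q := by
        haveI : IsCyclic (QuaternionGroup (2 ^ 0)) := by
          rw [pow_zero]
          exact QuaternionGroup.quaternionGroup_one_isCyclic
        exact isCyclic_of_surjective e.symm.toMonoidHom e.symm.surjective
      haveI := hCc
      haveI : IsCyclic (C × Q) := Group.isCyclic_prod_iff.mpr ⟨inferInstance, inferInstance, hcop⟩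
      exact isCyclic_of_surjective eE.symm.toMonoidHom eE.symm.surjective
    · right
      haveI := hCc
      exact ⟨Nat.card C, hCodd, ⟨eE.trans ((zmodCyclicMulEquiv hCc).symm.prodCongr e)⟩⟩
  · haveI := Fact.mk hp
    exact absurd h3 h.no_threeStep

end Cfsg.Agent.Lib.TICent
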